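import Mathlib
import Cfsg.Agent.Base

/-! Tools: semiregular actions, traces of idempotents commuting with an adjacency matrix,
automorphisms inverting many elements. -/

set_option autoImplicit false
set_option linter.unusedSectionVars false
set_option linter.style.haveILetI false

namespace H24.Rk

open Finset Matrix

theorem card_dvd_of_semi {U Y : Type*} [Group U] [Finite U] [MulAction U Y] (S : Finset Y)
    (hi : ∀ g : U, ∀ y ∈ S, g • y ∈ S) (hs : ∀ g : U, ∀ y ∈ S, g • y = y → g = 1) :
    Nat.card U ∣ S.card := by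
  classical
  haveI := Fintype.ofFinite U
  induction S using Finset.strongInduction with
  | H S ih =>
    rcases S.eq_empty_or_nonempty with rfl | ⟨y, hy⟩
    · simp
    have hinj : Function.Injective fun g : U => g • y := fun g g' e => by
      have : (g'⁻¹ * g) • y = y := by rw [mul_smul, show g • y = g' • y from e, inv_smul_smul]
      have := hs _ y hy this
      rw [inv_mul_eq_one] at this
      exact this.symm
    set O := univ.image fun g : U => g • y
    have hO : O ⊆ S := fun z hz => by
      obtain ⟨g, -, rfl⟩ := mem_image.1 hz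
      exact hi g y hy
    have hc : O.card = Nat.card U := by
      rw [card_image_of_injective _ hinj, card_univ, Nat.card_eq_fintype_card]
    have h1 := ih (S \ O) (sdiff_ssubset hO ⟨y, mem_image.2 ⟨1, mem_univ _, one_smul _ _⟩⟩)
      (fun g z hz => mem_sdiff.2 ⟨hi g z (mem_sdiff.1 hz).1, fun h => (mem_sdiff.1 hz).2 (by
        obtain ⟨g', -, e⟩ := mem_image.1 h
        exact mem_image.2 ⟨g⁻¹ * g', mem_univ _, by rw [mul_smul, e, inv_smul_smul]⟩)⟩)
      fun g z hz => hs g z (mem_sdiff.1 hz).1
    rw [← card_sdiff_add_card_eq_card hO, hc]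
    exact dvd_add h1 dvd_rfl

theorem card_dvd_conj {G : Type*} [Group G] [Finite G] (U : Subgroup G) (S : Finset G)
    (hi : ∀ g ∈ U, ∀ y ∈ S, g * y * g⁻¹ ∈ S) (hs : ∀ g ∈ U, ∀ y ∈ S, g * y * g⁻¹ = y → g = 1) :
    Nat.card U ∣ S.card := by
  letI : MulAction U G := MulAction.compHom G (MulAut.conj.comp U.subtype)
  exact card_dvd_of_semi S (fun g y hy => hi g g.2 y hy) fun g y hy e =>
    Subtype.ext (hs g g.2 y hy e)

theorem idem_trace {ι : Type*} [Fintype ι] [DecidableEq ι] {P : Matrix ι ι ℂ} (h : P * P = P) :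
    ∃ p : ℕ, P.trace = p := by
  have h1 : IsIdempotentElem (Matrix.toLin' P) := by
    change _ * _ = _
    rw [Module.End.mul_eq_comp, ← Matrix.toLin'_mul, h]
  exact ⟨_, by rw [← Matrix.trace_toLin'_eq, (LinearMap.IsIdempotentElem.isProj_range _ h1).trace]⟩

theorem split_trace {ι : Type*} [Fintype ι] [DecidableEq ι] {A e : Matrix ι ι ℂ} {r s : ℂ}
    (hrs : r ≠ s) (he : e * e = e) (hc : e * A = A * e)
    (hA : e * (A * A) = (r + s) • (e * A) - (r * s) • e) :
    ∃ p q : ℕ, (p : ℂ) + q = e.trace ∧ p * r + q * s = (e * A).trace := by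
  have key : ∀ {r s : ℂ}, r ≠ s → e * (A * A) = (r + s) • (e * A) - (r * s) • e →
      ∃ p : ℕ, (e * A).trace - s * e.trace = p * (r - s) := by
    intro r s hrs hA
    have h0 : r - s ≠ 0 := sub_ne_zero.2 hrs
    have h1 : e * A * e = e * A := by rw [mul_assoc, ← hc, ← mul_assoc, he]
    have h2 : e * A * (e * A) = (r + s) • (e * A) - (r * s) • e := by
      rw [← mul_assoc, h1, mul_assoc, hA]
    obtain ⟨p, hp⟩ := idem_trace (P := (r - s)⁻¹ • (e * A - s • e)) (by
      rw [smul_mul_smul_comm, sub_mul, mul_sub, mul_sub, h2, Matrix.mul_smul, h1,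
        Matrix.smul_mul, ← mul_assoc, he, smul_mul_smul_comm, he, mul_smul]
      congr 1
      rw [inv_smul_eq_iff₀ h0]
      module)
    refine ⟨p, ?_⟩
    rw [trace_smul, trace_sub, trace_smul, smul_eq_mul, smul_eq_mul, inv_mul_eq_iff_eq_mul₀ h0] at hp
    rw [hp, mul_comm]
  obtain ⟨p, hp⟩ := key hrs hA
  obtain ⟨q, hq⟩ := key hrs.symm (by rw [hA, add_comm, mul_comm r])
  have h0 : r - s ≠ 0 := sub_ne_zero.2 hrs
  have h3 : (p : ℂ) + q = e.trace := mul_right_cancel₀ h0 (by linear_combination hq - hp)
  exact ⟨p, q, h3, by linear_combination -hp + s * h3⟩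

open scoped Classical in
/-- Eigenvalue multiplicities of a strongly regular graph on an isotypic component. -/
theorem spec {G X : Type*} [Group G] [Fintype X] [MulAction G X] [Nonempty X] (adj : X → X → Prop)
    (inv : ∀ (g : G) x y, adj (g • x) (g • y) ↔ adj x y) (symm : ∀ x y, adj x y → adj y x)
    (irr : ∀ x, ¬ adj x x) {k lam mu : ℕ} (hk : ∀ x, (univ.filter (adj x)).card = k)
    (hl : ∀ x y, adj x y → (univ.filter fun z => adj x z ∧ adj y z).card = lam)
    (hm : ∀ x y, x ≠ y → ¬ adj x y → (univ.filter fun z => adj x z ∧ adj y z).card = mu)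
    {r s : ℂ} (hrs : r ≠ s) (h1 : r + s = lam - mu) (h2 : r * s = mu - k)
    (K : Subgroup G) [Fintype K] (ψ : K →* ℂ) :
    ∃ p q : ℕ, (Fintype.card K : ℂ) * (p + q) + ∑ y, ψ y =
        ∑ y : K, ψ y * (univ.filter fun x : X => (y : G) • x = x).card ∧
      (Fintype.card K : ℂ) * (p * r + q * s) + (∑ y, ψ y) * k =
        ∑ y : K, ψ y * (univ.filter fun x : X => adj x ((y : G) • x)).card := by
  let A : Matrix X X ℂ := Matrix.of fun x y => if adj x y then 1 else 0
  let J : Matrix X X ℂ := Matrix.of fun _ _ => 1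
  let P : G → Matrix X X ℂ := fun g => Matrix.of fun x y => if g • y = x then 1 else 0
  have hn : (Fintype.card X : ℂ) ≠ 0 := Nat.cast_ne_zero.2 Fintype.card_ne_zero
  have hK : (Fintype.card K : ℂ) ≠ 0 := Nat.cast_ne_zero.2 Fintype.card_ne_zero
  have PM : ∀ g (M : Matrix X X ℂ) x y, (P g * M) x y = M (g⁻¹ • x) y := fun g M x y => by
    rw [Matrix.mul_apply, sum_eq_single (g⁻¹ • x)]
    · simp [P]
    · intro z _ hz
      have : g • z ≠ x := fun e => hz (by rw [← e, inv_smul_smul])
      simp [P, this]
    · simp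
  have MP : ∀ g (M : Matrix X X ℂ) x y, (M * P g) x y = M x (g • y) := fun g M x y => by
    rw [Matrix.mul_apply, sum_eq_single (g • y)]
    · simp [P]
    · intro z _ hz
      simp [P, hz.symm]
    · simp
  have PP : ∀ g h, P g * P h = P (g * h) := fun g h => by
    ext x y
    rw [MP]
    simp only [P, mul_smul, of_apply]
  have PA : ∀ g, P g * A = A * P g := fun g => by
    ext x y
    rw [PM, MP]
    simp only [A, ← inv g (g⁻¹ • x), smul_inv_smul, of_apply]
  have PJ : ∀ g, P g * J = J := fun g => by ext x y; rw [PM]; rfl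
  have JP : ∀ g, J * P g = J := fun g => by ext x y; rw [MP]; rfl
  have AJ : A * J = (k : ℂ) • J := by
    ext x y
    simp [Matrix.mul_apply, A, J, hk x]
  have JA : J * A = (k : ℂ) • J := by
    ext x y
    have : (univ.filter fun z => adj z y) = univ.filter (adj y) :=
      filter_congr fun z _ => ⟨symm _ _, symm _ _⟩
    simp [Matrix.mul_apply, A, J, this, hk y]
  have JJ : J * J = (Fintype.card X : ℂ) • J := by
    ext x y
    simp [Matrix.mul_apply, J]
  have AA : A * A = (r + s) • A - (r * s) • (1 : Matrix X X ℂ) + (mu : ℂ) • J := by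
    ext x y
    have e : (A * A) x y = (univ.filter fun z => adj x z ∧ adj y z).card := by
      rw [Matrix.mul_apply, card_filter]
      push_cast
      refine sum_congr rfl fun z _ => ?_
      by_cases a1 : adj x z <;> by_cases a2 : adj y z <;>
        simp [A, a1, a2, show adj z y ↔ adj y z from ⟨symm _ _, symm _ _⟩]
    rw [e, h1, h2]
    by_cases hxy : x = y
    · subst hxy
      simp [A, J, irr, hk x]
    · by_cases ha : adj x y
      · simp [A, J, ha, hxy, hl x y ha]
      · simp [A, J, ha, hxy, hm x y hxy ha]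
  set σ := ∑ y, ψ y
  let E : Matrix X X ℂ := ∑ y : K, ψ y • P y
  have EE : E * E = (Fintype.card K : ℂ) • E := by
    have : ∀ y : K, (ψ y • P y) * E = E := fun y => by
      simp only [E, Finset.mul_sum, smul_mul_smul_comm, PP, ← map_mul]
      exact Fintype.sum_equiv (Equiv.mulLeft y) _ _ fun _ => rfl
    conv_lhs => lhs; unfold E
    rw [Finset.sum_mul, sum_congr rfl fun y _ => this y, sum_const, card_univ,
      Nat.cast_smul_eq_nsmul]
  have EA : E * A = A * E := by
    simp only [E, Finset.mul_sum, Finset.sum_mul, Matrix.smul_mul, Matrix.mul_smul, PA]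
  have EJ : E * J = σ • J := by
    simp only [E, Finset.sum_mul, Matrix.smul_mul, PJ, σ, Finset.sum_smul]
  have JE : J * E = σ • J := by
    simp only [E, Finset.mul_sum, Matrix.mul_smul, JP, σ, Finset.sum_smul]
  have hσ : σ * σ = Fintype.card K * σ := by
    have := congrArg (· * J) EE
    simp only [Matrix.mul_assoc, EJ, Matrix.mul_smul, Matrix.smul_mul, smul_smul] at this
    simpa [J] using congrFun (congrFun this (Classical.arbitrary X)) (Classical.arbitrary X)
  set n : ℂ := (Fintype.card X : ℂ)
  set κ : ℂ := (Fintype.card K : ℂ)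
  let e : Matrix X X ℂ := κ⁻¹ • (E - (σ / n) • J)
  have eJ : e * J = 0 := by
    simp only [e, Matrix.smul_mul, Matrix.sub_mul, EJ, JJ, smul_smul, div_mul_cancel₀ _ hn,
      sub_self, smul_zero]
  have eE : e * E = κ • e := by
    simp only [e, Matrix.smul_mul, Matrix.sub_mul, EE, JE, smul_smul, mul_inv_cancel₀ hK, one_smul]
    rw [inv_smul_eq_iff₀ hK, smul_sub, smul_smul]
    congr 2
    field_simp
    linear_combination hσ
  obtain ⟨p, q, h3, h4⟩ := split_trace (A := A) (e := e) hrs
    (by
      conv_lhs => rhs; unfold e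
      rw [Matrix.mul_smul, Matrix.mul_sub, Matrix.mul_smul, eJ, eE, smul_zero, sub_zero, smul_smul,
        inv_mul_cancel₀ hK, one_smul])
    (by simp only [e, Matrix.smul_mul, Matrix.mul_smul, Matrix.sub_mul, Matrix.mul_sub, EA, AJ, JA])
    (by rw [AA, Matrix.mul_add, Matrix.mul_sub, Matrix.mul_smul, Matrix.mul_smul, Matrix.mul_smul,
      eJ, smul_zero, add_zero, Matrix.mul_one])
  have tJ : J.trace = n := by simp [J, n, Matrix.trace]
  refine ⟨p, q, ?_, ?_⟩
  · have : E.trace = ∑ y : K, ψ y * (univ.filter fun x : X => (y : G) • x = x).card := by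
      simp only [E, trace_sum, trace_smul, smul_eq_mul]
      refine sum_congr rfl fun y _ => ?_
      simp [Matrix.trace, P]
    rw [h3, ← this]
    simp only [e, trace_smul, trace_sub, tJ, smul_eq_mul]
    field_simp
    ring
  · have : (E * A).trace = ∑ y : K, ψ y * (univ.filter fun x : X => adj x ((y : G) • x)).card := by
      simp only [E, Finset.sum_mul, trace_sum, Matrix.smul_mul, trace_smul, smul_eq_mul, PA]
      refine sum_congr rfl fun y _ => ?_
      simp [Matrix.trace, MP, A]
    rw [h4, ← this]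
    simp only [e, Matrix.smul_mul, Matrix.sub_mul, JA, trace_smul, trace_sub, tJ, smul_eq_mul]
    field_simp
    ring

open scoped Classical in
theorem comm_of_inv {D : Type*} [Group D] [Fintype D] (φ : D →* D)
    (h : 3 * Fintype.card D < 4 * (univ.filter fun x => φ x = x⁻¹).card) (x y : D) :
    x * y = y * x := by
  set I := univ.filter fun x => φ x = x⁻¹
  have top : ∀ (C : Subgroup D) (S : Finset D), (∀ x ∈ S, x ∈ C) → Fintype.card D < 2 * S.card →
      C = ⊤ := fun C S hS hc => by
    have h1 : S.card ≤ Nat.card C := by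
      rw [Nat.card_eq_fintype_card, ← card_univ]
      exact card_le_card_of_injOn (fun x => if hx : x ∈ C then ⟨x, hx⟩ else 1)
        (fun _ _ => mem_coe.2 (mem_univ _)) fun a ha b hb e => by
          simpa [hS a ha, hS b hb] using e
    have h2 := C.index_mul_card
    rw [Nat.card_eq_fintype_card (α := D)] at h2
    have h3 : C.index ≠ 0 := Subgroup.index_ne_zero_of_finite
    refine Subgroup.index_eq_one.1 ?_
    by_contra h4
    have : 2 ≤ C.index := by omega
    nlinarith
  have hz : ∀ x ∈ I, x ∈ Subgroup.center D := fun x hx => by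
    have hx' := (mem_filter.1 hx).2
    have := top (Subgroup.centralizer {x}) (I ∩ I.image (x⁻¹ * ·)) (fun y hy => by
      obtain ⟨h1, h2⟩ := mem_inter.1 hy
      obtain ⟨w, hw, rfl⟩ := mem_image.1 h2
      have h3 := (mem_filter.1 h1).2
      rw [map_mul, map_inv, hx', (mem_filter.1 hw).2] at h3
      refine Subgroup.mem_centralizer_singleton_iff.2 ?_
      have h4 : Commute x w⁻¹ := by simpa [Commute, SemiconjBy] using h3
      have h5 : Commute x w := by simpa using h4
      exact ((Commute.refl x).inv_right.mul_right h5).symm.eq) (by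
      have h1 := card_union_add_card_inter I (I.image (x⁻¹ * ·))
      rw [card_image_of_injective _ (mul_right_injective _)] at h1
      have h2 := card_le_univ (I ∪ I.image (x⁻¹ * ·))
      omega)
    exact Subgroup.mem_center_iff.2 fun g =>
      Subgroup.mem_centralizer_singleton_iff.1 (this ▸ Subgroup.mem_top g)
  have := top _ I hz (by omega)
  exact (Subgroup.mem_center_iff.1 (this ▸ Subgroup.mem_top y) x)

end H24.Rk
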